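import Cfsg.Agent.H5.Model3
import Cfsg.Agent.L0.Dihedral
import Cfsg.Agent.H3.SmallGrp
import Cfsg.Agent.H8.Syl

/-!
Recognition of `Z × A₄` and `Z × A₅` from the centraliser of an involution of a four-group.
-/

set_option autoImplicit false
set_option synthInstance.maxSize 4096
set_option maxRecDepth 100000
set_option linter.unusedSectionVars false

namespace Cfsg.H5

open Subgroup

variable {H : Type*} [Group H]

theorem A0.injective {φ : A0 →* H} (h : φ A0.w ≠ 1) : Function.Injective φ := by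
  rw [injective_iff_map_eq_one]
  intro s hs
  have : ∀ s : A0, s = 1 ∨ ∃ c d : A0, A0.w = c * s * c⁻¹ * (d * s * d⁻¹) ∨
      A0.w = c * s * c⁻¹ * (d * (s * s) * d⁻¹) := by decide +kernel
  rcases this s with h1 | ⟨c, d, h1 | h1⟩
  · exact h1
  · exact absurd (by rw [h1]; simp [hs]) h
  · exact absurd (by rw [h1]; simp [hs]) h

theorem B0.injective {φ : B0 →* H} (h : φ B0.v ≠ 1) : Function.Injective φ := by
  rw [injective_iff_map_eq_one]
  intro s hs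
  have : ∀ s : B0, s = 1 ∨ (∃ c : B0, B0.v = c * s * c⁻¹) ∨
      ∃ c d : B0, B0.v = c * s * c⁻¹ * (d * (s * s) * d⁻¹) := by decide +kernel
  rcases this s with h1 | ⟨c, h1⟩ | ⟨c, d, h1⟩
  · exact h1
  · exact absurd (by rw [h1]; simp [hs]) h
  · exact absurd (by rw [h1]; simp [hs]) h

/-- The elements of the four-group. -/
def B0.vv (i : Fin 4) : B0 := ![1, B0.v, B0.x * B0.v * B0.x⁻¹, B0.x⁻¹ * B0.v * B0.x] i

/-- The hypotheses of the recognition theorem. -/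
structure RecHyp (Z : Subgroup H) (χ : B0 →* H) : Prop where
  inj : Function.Injective χ
  comm : ∀ ζ ∈ Z, ∀ b, ζ * χ b = χ b * ζ
  abel : ∀ ζ ∈ Z, ∀ ζ' ∈ Z, ζ * ζ' = ζ' * ζ
  cen : ∀ g, g * χ B0.v = χ B0.v * g → ∃ ζ ∈ Z, ∃ b, b * b = 1 ∧ g = ζ * χ b
  fus : ∀ s, IsConj (χ B0.v) s → s * χ B0.v = χ B0.v * s → ∃ b, s = χ b
  h3 : ¬ 3 ∣ Nat.card Z
  hZ : ((∀ ζ ∈ Z, ∀ g, ζ * g = g * ζ) ∧ Odd (Nat.card Z)) ∨ IsPGroup 2 Z

namespace RecHyp

variable {Z : Subgroup H} {χ : B0 →* H} (R : RecHyp Z χ)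
include R

theorem eq_one_of_mem {b : B0} (h : χ b ∈ Z) : b = 1 := by
  have : ∀ b : B0, (∀ c, b * c = c * b) → b = 1 := by decide +kernel
  exact this b fun c => R.inj (by rw [map_mul, map_mul]; exact R.comm _ h c)

theorem sq {s : H} (hs : IsConj (χ B0.v) s) : s * s = 1 := by
  obtain ⟨g, rfl⟩ := isConj_iff.mp hs
  calc _ = g * χ (B0.v * B0.v) * g⁻¹ := by rw [map_mul]; group
    _ = 1 := by rw [B0.rel.vv]; simp

theorem ne_one {s : H} (hs : IsConj (χ B0.v) s) : s ≠ 1 := by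
  rintro rfl
  exact absurd (R.inj ((isConj_one_left.mp hs).trans (map_one χ).symm)) (by decide +kernel)

theorem inv_eq {s : H} (hs : IsConj (χ B0.v) s) : s⁻¹ = s := inv_eq_of_mul_eq_one_right (R.sq hs)

theorem cen' {g a : H} (h : a * (g * χ B0.v * g⁻¹) = g * χ B0.v * g⁻¹ * a) :
    ∃ ζ ∈ Z, ∃ b, b * b = 1 ∧ a = g * (ζ * χ b) * g⁻¹ := by
  obtain ⟨ζ, hζ, b, hb, e⟩ := R.cen (g⁻¹ * a * g) (by
    calc _ = g⁻¹ * (a * (g * χ B0.v * g⁻¹)) * g := by group
      _ = _ := by rw [h]; group)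
  exact ⟨ζ, hζ, b, hb, by rw [← e]; group⟩

theorem comm_of {s a b : H} (hs : IsConj (χ B0.v) s) (ha : a * s = s * a) (hb : b * s = s * b) :
    a * b = b * a := by
  obtain ⟨g, rfl⟩ := isConj_iff.mp hs
  obtain ⟨ζ, hζ, β, hβ, rfl⟩ := R.cen' ha
  obtain ⟨ζ', hζ', β', hβ', rfl⟩ := R.cen' hb
  have h1 : ∀ β β' : B0, β * β = 1 → β' * β' = 1 → β * β' = β' * β := by decide +kernel
  have h2 : χ β * χ β' = χ β' * χ β := by rw [← map_mul, h1 β β' hβ hβ', map_mul]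
  calc _ = g * (ζ * (χ β * ζ') * χ β') * g⁻¹ := by group
    _ = g * ((ζ * ζ') * (χ β * χ β')) * g⁻¹ := by rw [← R.comm _ hζ']; group
    _ = g * (ζ' * (ζ * χ β') * χ β) * g⁻¹ := by rw [R.abel _ hζ _ hζ', h2]; group
    _ = _ := by rw [R.comm _ hζ]; group

theorem isConj_of {b : B0} (h : b * b = 1) (h1 : b ≠ 1) : IsConj (χ B0.v) (χ b) := by
  have : ∀ b : B0, b * b = 1 → b ≠ 1 → ∃ c, c * B0.v * c⁻¹ = b := by decide +kernel
  obtain ⟨c, rfl⟩ := this b h h1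
  exact isConj_iff.mpr ⟨χ c, by simp⟩

theorem fus' {s : H} (hs : IsConj (χ B0.v) s) (h : s * χ B0.v = χ B0.v * s) :
    ∃ b, b * b = 1 ∧ b ≠ 1 ∧ s = χ b := by
  obtain ⟨b, rfl⟩ := R.fus s hs h
  exact ⟨b, R.inj (by rw [map_mul, R.sq hs, map_one]), fun e => R.ne_one hs (by rw [e, map_one]), rfl⟩

theorem mul_conj {s s' : H} (hs : IsConj (χ B0.v) s) (hs' : IsConj (χ B0.v) s')
    (hc : s * s' = s' * s) (hne : s ≠ s') : IsConj (χ B0.v) (s * s') := by
  obtain ⟨g, rfl⟩ := isConj_iff.mp hs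
  obtain ⟨b, hb, hb1, e⟩ := R.fus' (s := g⁻¹ * s' * g) (hs'.trans (isConj_iff.mpr ⟨g⁻¹, by group⟩)) (by
    calc _ = g⁻¹ * (s' * (g * χ B0.v * g⁻¹)) * g := by group
      _ = _ := by rw [← hc]; group)
  have e' : s' = g * χ b * g⁻¹ := by rw [← e]; group
  subst e'
  have h1 : ∀ b : B0, b * b = 1 → b ≠ B0.v → B0.v * b * (B0.v * b) = 1 ∧ B0.v * b ≠ 1 := by
    decide +kernel
  obtain ⟨h2, h3⟩ := h1 b hb fun e => hne (by rw [e])
  exact (R.isConj_of h2 h3).trans (isConj_iff.mpr ⟨g, by rw [map_mul]; group⟩)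

theorem dih {s s' : H} (hs : IsConj (χ B0.v) s) (hs' : IsConj (χ B0.v) s') (n : ℕ) :
    IsConj (χ B0.v) (s * (s * s') ^ n) := by
  induction n using Nat.twoStepInduction with
  | zero => simpa using hs
  | one => rwa [pow_one, ← mul_assoc, R.sq hs, one_mul]
  | more n ih _ =>
    refine ih.trans (isConj_iff.mpr ⟨(s * s')⁻¹, ?_⟩)
    have : (s * s')⁻¹ * s = s * (s * s') := by
      rw [mul_inv_rev, R.inv_eq hs, R.inv_eq hs', mul_assoc, R.sq hs, ← mul_assoc, R.sq hs]; simp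
    calc _ = ((s * s')⁻¹ * s) * (s * s') ^ n * (s * s') := by group
      _ = _ := by rw [this, pow_succ, pow_succ']; simp only [mul_assoc]

theorem eq_one_of_cube {s g : H} (hs : IsConj (χ B0.v) s) (h : g * s = s * g) (h3 : g ^ 3 = 1) :
    g = 1 := by
  obtain ⟨k, rfl⟩ := isConj_iff.mp hs
  obtain ⟨ζ, hζ, β, hβ, rfl⟩ := R.cen' h
  have h4 : (ζ * χ β) ^ 3 = 1 := by
    rwa [conj_pow, conj_eq_one_iff] at h3
  have h5 : (ζ * χ β) ^ 2 = ζ ^ 2 := by
    rw [Commute.mul_pow (R.comm _ hζ β), ← map_pow, pow_two β, hβ, map_one, mul_one]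
  have h6 : (ζ ^ 2) ^ 3 = 1 := by rw [← h5, ← pow_mul, mul_comm, pow_mul, h4, one_pow]
  have h7 : (ζ ^ 2) ^ Nat.card Z = 1 := by
    have := pow_card_eq_one' (G := Z) (x := ⟨ζ ^ 2, Z.pow_mem hζ 2⟩)
    exact congrArg Subtype.val this
  have h8 := H8.eq_one_of_pow_coprime ((Nat.Prime.coprime_iff_not_dvd Nat.prime_three).mpr R.h3) h6 h7
  rw [conj_eq_one_iff]
  exact H8.eq_one_of_pow_coprime (m := 2) (n := 3) (by norm_num) (h5.trans h8) h4

theorem x_ne : χ B0.x ≠ 1 := fun e =>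
  absurd (R.inj (e.trans (map_one χ).symm)) (by decide +kernel)

theorem x_cube : χ B0.x ^ 3 = 1 := by rw [← map_pow, B0.rel.x3, map_one]

variable [Finite H]

theorem odd {s s' : H} (hs : IsConj (χ B0.v) s) (hs' : IsConj (χ B0.v) s')
    (hc : s * s' ≠ s' * s) : Odd (orderOf (s * s')) := by
  by_contra ho
  obtain ⟨m, hm⟩ := Nat.not_odd_iff_even.mp ho
  have hpos := orderOf_pos (s * s')
  have y1 : (s * s') ^ m ≠ 1 := pow_ne_one_of_lt_orderOf (by omega) (by omega)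
  have y2 : ((s * s') ^ m)⁻¹ = (s * s') ^ m :=
    inv_eq_of_mul_eq_one_right (by rw [← pow_add, ← hm, pow_orderOf_eq_one])
  have c1 := L0.inverts_pow (L0.inverts_mul_left (R.sq hs) (R.sq hs')) m
  have c2 := L0.inverts_pow (L0.inverts_mul_right (R.sq hs) (R.sq hs')) m
  rw [y2, mul_inv_eq_iff_eq_mul] at c1 c2
  have h1 := R.mul_conj hs (R.dih hs hs' m) (by rw [mul_assoc, ← c1]) (fun e => y1 (by simpa using e))
  rw [← mul_assoc, R.sq hs, one_mul] at h1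
  exact hc (R.comm_of h1 c1 c2)

theorem out_conj {y s : H} (hy : IsConj (χ B0.v) y) (hy' : y * χ B0.v ≠ χ B0.v * y)
    (hs : IsConj (χ B0.v) s) (hs' : s * χ B0.v = χ B0.v * s) :
    y * s * y⁻¹ * χ B0.v ≠ χ B0.v * (y * s * y⁻¹) := by
  intro h
  have h1 : y * s ≠ s * y := fun e => hy' (R.comm_of hs e hs'.symm)
  have h2 := R.comm_of (IsConj.refl _) h hs'
  have h3 : (y * s) ^ 4 = 1 := by
    calc _ = (y * s * y⁻¹ * s) * (y * s * y⁻¹ * s) := by rw [R.inv_eq hy]; simp [pow_succ, mul_assoc]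
      _ = (y * s * y⁻¹) * (s * (y * s * y⁻¹)) * s := by group
      _ = y * (s * s) * y⁻¹ * (s * s) := by rw [← h2]; group
      _ = 1 := by rw [R.sq hs]; group
  have h4 := H8.eq_one_of_pow_coprime
    (Nat.Coprime.pow_right 2 (Nat.coprime_two_right.mpr (R.odd hy hs h1))) (pow_orderOf_eq_one _) h3
  exact h1 (by rw [h4, mul_eq_one_comm.mp h4])

theorem exists_out {s : H} (hs : IsConj (χ B0.v) s) (hs' : s * χ B0.v ≠ χ B0.v * s) :
    ∃ y, IsConj (χ B0.v) y ∧ y * χ B0.v ≠ χ B0.v * y ∧ y * χ B0.v * y⁻¹ = s := by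
  obtain ⟨k, hk⟩ := R.odd (IsConj.refl _) hs (Ne.symm hs')
  have h1 := R.dih (IsConj.refl _) hs (k + 1)
  have h2 : χ B0.v * (χ B0.v * s) ^ (k + 1) * χ B0.v * (χ B0.v * (χ B0.v * s) ^ (k + 1))⁻¹ = s := by
    rw [R.inv_eq h1]
    calc _ = χ B0.v * (χ B0.v * s) ^ (k + 1) * (χ B0.v * χ B0.v) * (χ B0.v * s) ^ (k + 1) := by group
      _ = χ B0.v * ((χ B0.v * s) ^ (2 * k + 1) * (χ B0.v * s)) := by
        rw [R.sq (IsConj.refl _), mul_one, mul_assoc, ← pow_add, ← pow_succ]; congr 2; ring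
      _ = s := by rw [← hk, pow_orderOf_eq_one, one_mul, ← mul_assoc, R.sq (IsConj.refl _), one_mul]
  refine ⟨_, h1, fun e => hs' ?_, h2⟩
  rw [e, mul_inv_cancel_right] at h2
  rw [← h2]

theorem exists_inverter {y : H} (hy : IsConj (χ B0.v) y) (hy' : y * χ B0.v ≠ χ B0.v * y) :
    ∃ i u, IsConj (χ B0.v) u ∧ u * χ B0.x * u⁻¹ = (χ B0.x)⁻¹ ∧
      y = χ (B0.vv i) * u * (χ (B0.vv i))⁻¹ := by
  have v2 : IsConj (χ B0.v) (χ (B0.vv 2)) := R.isConj_of (by decide +kernel) (by decide +kernel)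
  obtain ⟨y2, h1, -, h3⟩ := R.exists_out (v2.trans (isConj_iff.mpr ⟨y, rfl⟩))
    (R.out_conj hy hy' v2 (by rw [← map_mul, ← map_mul]; congr 1))
  have e2 : χ (B0.vv 2) = χ B0.x * χ B0.v * (χ B0.x)⁻¹ := by rw [← map_inv, ← map_mul, ← map_mul]; rfl
  obtain ⟨ζ, hζ, β, hβ, e⟩ := R.cen ((χ B0.x)⁻¹ * y⁻¹ * y2) (by
    calc _ = (χ B0.x)⁻¹ * y⁻¹ * (y2 * χ B0.v * y2⁻¹) * y2 := by group
      _ = _ := by rw [h3, e2]; group)
  have e3 : y * y2 = ζ * χ (B0.x * β) := by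
    calc y * y2 = χ B0.x * ((χ B0.x)⁻¹ * y⁻¹ * y2) := by rw [R.inv_eq hy]; group
      _ = _ := by rw [e, map_mul, ← mul_assoc, ← R.comm _ hζ, mul_assoc]
  have f : ∀ β : B0, β * β = 1 → (B0.x * β) ^ 3 = 1 ∧ (B0.x * β) ^ 2 ≠ 1 ∧
      ∃ i, B0.x * β = B0.vv i * B0.x * (B0.vv i)⁻¹ := by decide +kernel
  obtain ⟨f1, f2, i, f3⟩ := f β hβ
  have inv := L0.inverts_mul_left (R.sq hy) (R.sq h1)
  have cube : (y * y2) ^ 3 = ζ ^ 3 := by
    rw [e3, Commute.mul_pow (R.comm _ hζ _), ← map_pow, f1, map_one, mul_one]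
  have hζ1 : ζ = 1 := by
    have hc : ζ ^ Nat.card Z = 1 := congrArg Subtype.val (pow_card_eq_one' (G := Z) (x := ⟨ζ, hζ⟩))
    rcases R.hZ with ⟨hc1, hc2⟩ | hp
    · have h4 := L0.inverts_pow inv 3
      rw [cube, ← hc1 _ (Z.pow_mem hζ 3), mul_inv_cancel_right, eq_inv_iff_mul_eq_one,
        ← pow_add] at h4
      refine H8.eq_one_of_pow_coprime (m := 2 * 3) ?_ h4 hc
      exact Nat.Coprime.mul_left (Nat.coprime_two_left.mpr hc2)
        ((Nat.Prime.coprime_iff_not_dvd Nat.prime_three).mpr R.h3)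
    · have hnc : y * y2 ≠ y2 * y := by
        intro hcm
        have h4 : (y * y2) ^ 2 = 1 := by
          rw [Commute.mul_pow hcm, pow_two, pow_two, R.sq hy, R.sq h1, one_mul]
        rw [e3, Commute.mul_pow (R.comm _ hζ _), ← map_pow] at h4
        exact f2 (R.eq_one_of_mem (by
          rw [eq_inv_of_mul_eq_one_right h4]; exact Z.inv_mem (Z.pow_mem hζ 2)))
      obtain ⟨k, hk⟩ := hp ⟨ζ, hζ⟩
      refine H8.eq_one_of_pow_coprime (m := 2 ^ k) (n := 3 * orderOf (y * y2)) ?_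
        (congrArg Subtype.val hk) (by rw [pow_mul, ← cube, ← pow_mul, mul_comm, pow_mul,
          pow_orderOf_eq_one, one_pow])
      exact Nat.Coprime.pow_left _ (Nat.coprime_two_left.mpr
        ((by decide : Odd 3).mul (R.odd hy h1 hnc)))
  rw [e3, hζ1, one_mul, f3, map_mul, map_mul, map_inv] at inv
  refine ⟨i, (χ (B0.vv i))⁻¹ * y * χ (B0.vv i), hy.trans (isConj_iff.mpr ⟨(χ (B0.vv i))⁻¹, by group⟩),
    ?_, by group⟩
  calc _ = (χ (B0.vv i))⁻¹ * (y * (χ (B0.vv i) * χ B0.x * (χ (B0.vv i))⁻¹) * y⁻¹) * χ (B0.vv i) := by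
        group
    _ = _ := by rw [inv]; group

omit [Finite H] in
theorem inverter_out {u : H} (hu : IsConj (χ B0.v) u) (h : u * χ B0.x * u⁻¹ = (χ B0.x)⁻¹) :
    u * χ B0.v ≠ χ B0.v * u := by
  intro e
  obtain ⟨b, hb, -, rfl⟩ := R.fus' hu e
  have : ∀ b : B0, b * b = 1 → b * B0.x * b⁻¹ ≠ B0.x⁻¹ := by decide +kernel
  exact this b hb (R.inj (by simpa using h))

theorem card_out : Nat.card {s // IsConj (χ B0.v) s ∧ s * χ B0.v ≠ χ B0.v * s} =
    4 * Nat.card {u // IsConj (χ B0.v) u ∧ u * χ B0.x * u⁻¹ = (χ B0.x)⁻¹} := by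
  have cv : ∀ i, χ (B0.vv i) * χ B0.v = χ B0.v * χ (B0.vv i) := by
    intro i
    rw [← map_mul, ← map_mul]
    congr 1
    revert i; decide +kernel
  let f : Fin 4 × {u // IsConj (χ B0.v) u ∧ u * χ B0.x * u⁻¹ = (χ B0.x)⁻¹} →
      {s // IsConj (χ B0.v) s ∧ s * χ B0.v ≠ χ B0.v * s} := fun p =>
    ⟨χ (B0.vv p.1) * p.2.1 * (χ (B0.vv p.1))⁻¹, p.2.2.1.trans (isConj_iff.mpr ⟨_, rfl⟩), fun e =>
      R.inverter_out p.2.2.1 p.2.2.2 (by
        calc _ = (χ (B0.vv p.1))⁻¹ * (χ (B0.vv p.1) * p.2.1 * (χ (B0.vv p.1))⁻¹ *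
              (χ (B0.vv p.1) * χ B0.v)) := by group
          _ = (χ (B0.vv p.1))⁻¹ * ((χ (B0.vv p.1) * p.2.1 * (χ (B0.vv p.1))⁻¹ * χ B0.v) *
              χ (B0.vv p.1)) := by rw [cv]; group
          _ = (χ (B0.vv p.1))⁻¹ * (χ B0.v * χ (B0.vv p.1)) * p.2.1 := by rw [e]; group
          _ = _ := by rw [← cv]; group)⟩
  have hf : Function.Bijective f := by
    constructor
    · rintro ⟨i, y, hy, hy'⟩ ⟨j, y', hz, hz'⟩ e
      have e' : χ (B0.vv i) * y * (χ (B0.vv i))⁻¹ = χ (B0.vv j) * y' * (χ (B0.vv j))⁻¹ :=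
        congrArg Subtype.val e
      by_cases hij : i = j
      · subst hij
        have : y = y' := by simpa using e'
        subst this; rfl
      · exfalso
        have h1 : ∀ i j, i ≠ j → ∃ γ δ δ' : B0, γ = (B0.vv j)⁻¹ * B0.vv i ∧
            δ = B0.x⁻¹ * (γ * B0.x * γ⁻¹) ∧ δ' = B0.x * (γ * B0.x * γ⁻¹)⁻¹ ∧ δ * δ = 1 ∧ δ ≠ 1 ∧
            δ * B0.v = B0.v * δ ∧ δ' * B0.v = B0.v * δ' := by
          intro i j h
          refine ⟨_, _, _, rfl, rfl, rfl, ?_⟩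
          revert i j; decide +kernel
        obtain ⟨γ, δ, δ', hγ, hδ, hδ', d1, d2, d3, d4⟩ := h1 i j hij
        have e2 : y' = χ γ * y * (χ γ)⁻¹ := by
          rw [hγ, map_mul, map_inv]
          calc y' = (χ (B0.vv j))⁻¹ * (χ (B0.vv j) * y' * (χ (B0.vv j))⁻¹) * χ (B0.vv j) := by group
            _ = _ := by rw [← e']; group
        have e3 : y' * χ δ * y'⁻¹ = χ δ' := by
          rw [hδ, hδ']
          simp only [map_mul, map_inv]
          calc _ = (y' * χ B0.x * y'⁻¹)⁻¹ * (y' * (χ γ * χ B0.x * (χ γ)⁻¹) * y'⁻¹) := by group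
            _ = χ B0.x * (χ γ * (y * χ B0.x * y⁻¹) * (χ γ)⁻¹) := by
              rw [hz']; nth_rewrite 1 [e2]; nth_rewrite 1 [e2]; group
            _ = _ := by rw [hy']; group
        refine R.out_conj hz (R.inverter_out hz hz') (R.isConj_of d1 d2)
          (by rw [← map_mul, d3, map_mul]) ?_
        rw [e3, ← map_mul, d4, map_mul]
    · rintro ⟨s, hs, hs'⟩
      obtain ⟨i, u, h1, h2, rfl⟩ := R.exists_inverter hs hs'
      exact ⟨⟨i, u, h1, h2⟩, rfl⟩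
  rw [← Nat.card_congr (Equiv.ofBijective f hf), Nat.card_prod]
  simp

omit [Finite H] in
theorem card_in : Nat.card {s // IsConj (χ B0.v) s ∧ s * χ B0.v = χ B0.v * s} = 3 := by
  let f : Fin 3 → {s // IsConj (χ B0.v) s ∧ s * χ B0.v = χ B0.v * s} := fun i =>
    ⟨χ (B0.vv i.succ), R.isConj_of (by revert i; decide +kernel) (by revert i; decide +kernel), by
      rw [← map_mul, ← map_mul]
      congr 1
      revert i; decide +kernel⟩
  have hf : Function.Bijective f := by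
    constructor
    · intro i j e
      have h : ∀ i j : Fin 3, B0.vv i.succ = B0.vv j.succ → i = j := by decide +kernel
      exact h i j (R.inj (congrArg Subtype.val e))
    · rintro ⟨s, hs, hs'⟩
      obtain ⟨b, h1, h2, rfl⟩ := R.fus' hs hs'
      have : ∀ b : B0, b * b = 1 → b ≠ 1 → ∃ i : Fin 3, B0.vv i.succ = b := by decide +kernel
      obtain ⟨i, rfl⟩ := this b h1 h2
      exact ⟨i, rfl⟩
  rw [← Nat.card_congr (Equiv.ofBijective f hf)]
  simp

omit [Finite H] in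
theorem card_cen : Nat.card (centralizer {χ B0.v}) = 4 * Nat.card Z := by
  let f : Fin 4 × Z → centralizer {χ B0.v} := fun p =>
    ⟨p.2.1 * χ (B0.vv p.1), mem_centralizer_singleton_iff.mpr (by
      have : ∀ i, B0.vv i * B0.v = B0.v * B0.vv i := by decide +kernel
      rw [mul_assoc, ← map_mul, this, map_mul, ← mul_assoc, R.comm _ p.2.2, mul_assoc])⟩
  have hf : Function.Bijective f := by
    constructor
    · rintro ⟨i, ζ, hζ⟩ ⟨j, ζ', hζ'⟩ e
      have e' : ζ * χ (B0.vv i) = ζ' * χ (B0.vv j) := congrArg Subtype.val e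
      have h1 : B0.vv i * (B0.vv j)⁻¹ = 1 := R.eq_one_of_mem (by
        have : χ (B0.vv i * (B0.vv j)⁻¹) = ζ⁻¹ * ζ' := by
          rw [map_mul, map_inv, ← mul_inv_eq_iff_eq_mul.mpr e'.symm]; group
        rw [this]; exact Z.mul_mem (Z.inv_mem hζ) hζ')
      have h0 : ∀ i j : Fin 4, B0.vv i * (B0.vv j)⁻¹ = 1 → i = j := by decide +kernel
      have h2 : i = j := h0 i j h1
      subst h2
      have : ζ = ζ' := by simpa using e'
      subst this; rfl
    · rintro ⟨g, hg⟩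
      obtain ⟨ζ, hζ, b, hb, rfl⟩ := R.cen g (mem_centralizer_singleton_iff.mp hg)
      have : ∀ b : B0, b * b = 1 → ∃ i, B0.vv i = b := by decide +kernel
      obtain ⟨i, rfl⟩ := this b hb
      exact ⟨⟨i, ζ, hζ⟩, rfl⟩
  rw [← Nat.card_congr (Equiv.ofBijective f hf), Nat.card_prod]
  simp

theorem card_eq : Nat.card H = (3 + 4 *
    Nat.card {u // IsConj (χ B0.v) u ∧ u * χ B0.x * u⁻¹ = (χ B0.x)⁻¹}) * (4 * Nat.card Z) := by
  classical
  rw [← H3.ncard_conj_mul_card_top (χ B0.v), R.card_cen, ← R.card_out, ← R.card_in, ← Nat.card_sum,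
    ← Nat.card_coe_set_eq]
  congr 1
  refine Nat.card_congr ((Equiv.subtypeEquivRight fun s => isConj_iff.symm).trans ?_)
  exact (Equiv.sumCompl (fun s : {s // IsConj (χ B0.v) s} => s.1 * χ B0.v = χ B0.v * s.1)).symm.trans
    (Equiv.sumCongr (Equiv.subtypeSubtypeEquivSubtypeInter _ fun s => s * χ B0.v = χ B0.v * s)
      (Equiv.subtypeSubtypeEquivSubtypeInter _ fun s => ¬ s * χ B0.v = χ B0.v * s))

theorem inverters {u : H} (hu : IsConj (χ B0.v) u) (hx : u * χ B0.x * u⁻¹ = (χ B0.x)⁻¹) :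
    Nat.card {u // IsConj (χ B0.v) u ∧ u * χ B0.x * u⁻¹ = (χ B0.x)⁻¹} = 3 ∧
      ∀ ζ ∈ Z, ζ * u = u * ζ := by
  classical
  set x := χ B0.x with hxd
  set m := Nat.card {u // IsConj (χ B0.v) u ∧ u * x * u⁻¹ = x⁻¹} with hm
  -- two inverting involutions do not commute
  have cx : ∀ y, y * x * y⁻¹ = x⁻¹ → x * (u * y) = u * y * x := by
    intro y hy
    have : u * y * x * (u * y)⁻¹ = x := by
      calc _ = u * (y * x * y⁻¹) * u⁻¹ := by group
        _ = (u * x * u⁻¹)⁻¹ := by rw [hy]; group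
        _ = x := by rw [hx, inv_inv]
    exact (mul_inv_eq_iff_eq_mul.mp this).symm
  have nc : ∀ y, IsConj (χ B0.v) y → y * x * y⁻¹ = x⁻¹ → u * y = y * u → y = u := by
    intro y hy hy' hc
    by_contra hne
    exact R.x_ne (R.eq_one_of_cube (R.mul_conj hu hy hc (Ne.symm hne)) (cx y hy') R.x_cube)
  have orb : m * Nat.card (centralizer {x} ⊓ centralizer {u} : Subgroup H) =
      Nat.card (centralizer {x}) := by
    rw [← H3.ncard_conj_mul_card (centralizer {x}) u, ← Nat.card_coe_set_eq]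
    congr 1
    refine Nat.card_congr (Equiv.subtypeEquivRight fun y => ⟨fun ⟨h1, h2⟩ => ?_, ?_⟩)
    · by_cases hc : u * y = y * u
      · exact ⟨1, one_mem _, by rw [nc y h1 h2 hc]; simp⟩
      · obtain ⟨g, hg, e⟩ := L0.exists_conj_of_odd_orderOf_mul (R.sq hu) (R.sq h1) (R.odd hu h1 hc)
        exact ⟨g, (zpowers_le.mpr (mem_centralizer_singleton_iff.mpr (cx y h2).symm)) hg, e⟩
    · rintro ⟨k, hk, rfl⟩
      have hk' := mem_centralizer_singleton_iff.mp hk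
      refine ⟨hu.trans (isConj_iff.mpr ⟨k, rfl⟩), ?_⟩
      have e1 : k⁻¹ * x * k = x := by rw [mul_assoc, ← hk']; group
      calc _ = k * (u * (k⁻¹ * x * k) * u⁻¹) * k⁻¹ := by group
        _ = (k * x * k⁻¹)⁻¹ := by rw [e1, hx]; group
        _ = _ := by rw [hk']; group
  have modd : Odd m := by
    have := Fintype.ofFinite H
    have : Fact (Nat.Prime 2) := ⟨Nat.prime_two⟩
    let f : Function.End {u // IsConj (χ B0.v) u ∧ u * x * u⁻¹ = x⁻¹} := fun y =>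
      ⟨u * y.1 * u⁻¹, y.2.1.trans (isConj_iff.mpr ⟨u, rfl⟩), by
        have e1 : u⁻¹ * x * u = x⁻¹ := by rw [← hx, R.inv_eq hu]
        calc _ = u * (y.1 * (u⁻¹ * x * u) * y.1⁻¹) * u⁻¹ := by group
          _ = u * (y.1 * x * y.1⁻¹)⁻¹ * u⁻¹ := by rw [e1]; group
          _ = _ := by rw [y.2.2, inv_inv, hx]⟩
    have h1 : f ^ 2 ^ 1 = 1 := by
      funext y
      apply Subtype.ext
      show u * (u * y.1 * u⁻¹) * u⁻¹ = y.1
      calc _ = (u * u) * y.1 * (u * u)⁻¹ := by group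
        _ = _ := by rw [R.sq hu]; group
    have h2 := Equiv.Perm.card_fixedPoints_modEq h1
    rw [← Nat.card_eq_fintype_card, ← Nat.card_eq_fintype_card] at h2
    have h3 : Nat.card (Function.fixedPoints f) = 1 := by
      rw [Nat.card_eq_one_iff_exists]
      refine ⟨⟨⟨u, hu, hx⟩, Subtype.ext (by show u * u * u⁻¹ = u; group)⟩, fun y => ?_⟩
      have e : u * y.1.1 * u⁻¹ = y.1.1 := congrArg Subtype.val y.2
      exact Subtype.ext (Subtype.ext (nc _ y.1.2.1 y.1.2.2 (mul_inv_eq_iff_eq_mul.mp e)))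
    rw [h3] at h2
    exact Nat.odd_iff.mpr h2
  have Zx : Z ≤ centralizer {x} := fun ζ hζ => mem_centralizer_singleton_iff.mpr (R.comm ζ hζ _)
  have le1 : Nat.card (centralizer {x} ⊓ centralizer {u} : Subgroup H) ≤ Nat.card Z := by
    obtain ⟨g, hg⟩ := isConj_iff.mp hu
    have : ∀ f : (centralizer {x} ⊓ centralizer {u} : Subgroup H),
        ∃ ζ ∈ Z, ∃ b, b * b = 1 ∧ f.1 = g * (ζ * χ b) * g⁻¹ := fun f =>
      R.cen' (by rw [hg]; exact mem_centralizer_singleton_iff.mp f.2.2)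
    choose ζ hζ b hb e using this
    refine Nat.card_le_card_of_injective (fun f => (⟨ζ f, hζ f⟩ : Z)) fun f f' h => ?_
    have h' : ζ f = ζ f' := congrArg Subtype.val h
    by_contra hne
    have h1 : ∀ b b' : B0, b * b = 1 → b' * b' = 1 → b⁻¹ * b' * (b⁻¹ * b') = 1 := by decide +kernel
    have h2 : f.1⁻¹ * f'.1 = g * χ ((b f)⁻¹ * b f') * g⁻¹ := by
      rw [e f, e f', h', map_mul, map_inv]; group
    have h3 : (b f)⁻¹ * b f' ≠ 1 := fun e' => hne (Subtype.ext (by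
      rw [e', map_one] at h2
      exact inv_mul_eq_one.mp (by simpa using h2)))
    have h4 := (R.isConj_of (h1 _ _ (hb f) (hb f')) h3).trans (isConj_iff.mpr ⟨g, rfl⟩)
    rw [← h2] at h4
    exact R.x_ne (R.eq_one_of_cube h4 (mem_centralizer_singleton_iff.mp
      ((centralizer {x}).mul_mem ((centralizer {x}).inv_mem f.2.1) f'.2.1)).symm R.x_cube)
  have eq1 : Nat.card (centralizer {x} ⊓ centralizer {u} : Subgroup H) = Nat.card Z := by
    refine le_antisymm le1 ?_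
    rcases R.hZ with ⟨hc, -⟩ | hp
    · exact card_le_of_le (le_inf Zx fun ζ hζ => mem_centralizer_singleton_iff.mpr (hc ζ hζ u))
    · have : Fact (Nat.Prime 2) := ⟨Nat.prime_two⟩
      obtain ⟨k, hk⟩ := IsPGroup.iff_card.mp hp
      have h1 := card_dvd_of_le Zx
      rw [← orb, hk] at h1
      rw [hk]
      exact Nat.le_of_dvd Nat.card_pos
        ((Nat.Coprime.pow_left k (Nat.coprime_two_left.mpr modd)).dvd_of_dvd_mul_left h1)
  have m3 : m = 3 := by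
    have h1 := card_subgroup_dvd_card (centralizer {x})
    rw [← orb, eq1, R.card_eq, ← hxd, ← hm, ← mul_assoc] at h1
    have h2 : m ∣ (3 + 4 * m) * 4 := Nat.dvd_of_mul_dvd_mul_right Nat.card_pos h1
    have h3 : m ∣ 12 := by
      have : (3 + 4 * m) * 4 = 12 + m * 16 := by ring
      rw [this] at h2
      exact (Nat.dvd_add_left (dvd_mul_right m 16)).mp h2
    have h4 : m ≠ 1 := by
      intro h
      obtain ⟨y, hy⟩ := Nat.card_eq_one_iff_exists.mp h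
      have e1 := hy ⟨u, hu, hx⟩
      have e2 := hy ⟨x * u * x⁻¹, hu.trans (isConj_iff.mpr ⟨x, rfl⟩), by
        calc _ = x * (u * x * u⁻¹) * x⁻¹ := by group
          _ = _ := by rw [hx]; group⟩
      have e3 : x * u * x⁻¹ = u := congrArg Subtype.val (e2.trans e1.symm)
      exact R.x_ne (R.eq_one_of_cube hu (mul_inv_eq_iff_eq_mul.mp e3) R.x_cube)
    have h5 := Nat.le_of_dvd (by norm_num) h3
    obtain ⟨k, hk⟩ := modd
    interval_cases m <;> omega
  refine ⟨m3, ?_⟩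
  have ox : orderOf x = 3 := orderOf_eq_prime_iff (hp := ⟨Nat.prime_three⟩).mpr ⟨R.x_cube, R.x_ne⟩
  have cop : (Nat.card Z).Coprime 3 := ((Nat.Prime.coprime_iff_not_dvd Nat.prime_three).mpr R.h3).symm
  have sup : Z ⊔ zpowers x = centralizer {x} := by
    refine eq_of_le_of_card_ge (sup_le Zx (zpowers_le.mpr (mem_centralizer_singleton_iff.mpr rfl))) ?_
    rw [← orb, eq1, m3, mul_comm]
    refine Nat.le_of_dvd Nat.card_pos (cop.mul_dvd_of_dvd_of_dvd (card_dvd_of_le le_sup_left) ?_)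
    rw [← ox, ← Nat.card_zpowers]
    exact card_dvd_of_le le_sup_right
  have FZ : (centralizer {x} ⊓ centralizer {u} : Subgroup H) ≤ Z := by
    intro f hf
    have h1 := hf.1
    rw [← sup] at h1
    obtain ⟨ζ, hζ, y, hy, rfl⟩ := (H8.mem_sup_of_le_normalizer_left (zpowers_le.mpr
      (H8.mem_normalizer_of_forall fun ζ hζ => by
        rw [← R.comm ζ hζ, mul_inv_cancel_right]; exact hζ))).mp h1
    have h2 : (ζ * y) ^ Nat.card Z = 1 := by
      rw [← eq1]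
      exact congrArg Subtype.val (pow_card_eq_one'
        (G := (centralizer {x} ⊓ centralizer {u} : Subgroup H)) (x := ⟨_, hf⟩))
    have hc : ζ ^ Nat.card Z = 1 := congrArg Subtype.val (pow_card_eq_one' (G := Z) (x := ⟨ζ, hζ⟩))
    obtain ⟨k, rfl⟩ := mem_zpowers_iff.mp hy
    rw [Commute.mul_pow (Commute.zpow_right (R.comm ζ hζ B0.x) k), hc, one_mul] at h2
    have h3 : (x ^ k) ^ 3 = 1 := by
      rw [← zpow_natCast, ← zpow_mul, mul_comm, zpow_mul, zpow_natCast, R.x_cube, one_zpow]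
    rw [H8.eq_one_of_pow_coprime cop h2 h3, mul_one]
    exact hζ
  have FZ' := eq_of_le_of_card_ge FZ eq1.ge
  intro ζ hζ
  rw [← FZ'] at hζ
  exact mem_centralizer_singleton_iff.mp hζ.2

theorem main : (∀ g, ∃ ζ ∈ Z, ∃ b, g = ζ * χ b) ∨ ∃ ψ : A0 →* H, Function.Injective ψ ∧
    ψ A0.w = χ B0.v ∧ ψ A0.t = χ B0.x ∧ (∀ ζ ∈ Z, ∀ s, ζ * ψ s = ψ s * ζ) ∧
    ∀ g, ∃ ζ ∈ Z, ∃ s, g = ζ * ψ s := by
  classical
  by_cases hJ : ∀ y, IsConj (χ B0.v) y → y * χ B0.v = χ B0.v * y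
  · left
    intro g
    obtain ⟨b, h1, h2, e⟩ := R.fus' (isConj_iff.mpr ⟨g, rfl⟩) (hJ _ (isConj_iff.mpr ⟨g, rfl⟩))
    have : ∀ b : B0, b * b = 1 → b ≠ 1 → ∃ c, c * B0.v * c⁻¹ = b := by decide +kernel
    obtain ⟨c, rfl⟩ := this b h1 h2
    obtain ⟨ζ, hζ, b, -, e'⟩ := R.cen ((χ c)⁻¹ * g) (by
      calc _ = (χ c)⁻¹ * (g * χ B0.v * g⁻¹) * g := by group
        _ = _ := by rw [e]; simp [mul_assoc])
    refine ⟨ζ, hζ, c * b, ?_⟩
    rw [map_mul, ← mul_assoc, R.comm ζ hζ, mul_assoc, ← e']; group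
  right
  push Not at hJ
  obtain ⟨y, hy, hy'⟩ := hJ
  obtain ⟨-, u, hu, hx, -⟩ := R.exists_inverter hy hy'
  obtain ⟨m3, hZu⟩ := R.inverters hu hx
  set x := χ B0.x with hxd
  have xu : x * u = u * x⁻¹ := by rw [← hx, R.inv_eq hu, ← mul_assoc, ← mul_assoc, R.sq hu, one_mul]
  have Y : ∀ y, IsConj (χ B0.v) y → y * x * y⁻¹ = x⁻¹ → ∃ i < 3, y = u * x ^ i := by
    have mem : ∀ i : ℕ, IsConj (χ B0.v) (u * x ^ i) ∧ u * x ^ i * x * (u * x ^ i)⁻¹ = x⁻¹ := by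
      intro i
      refine ⟨hu.trans (isConj_iff.mpr ⟨x ^ i, ?_⟩), by rw [← hx]; group⟩
      have h1 : x ^ i * u = u * (x ^ i)⁻¹ := by
        rw [← L0.inverts_pow hx i, R.inv_eq hu, ← mul_assoc, ← mul_assoc, R.sq hu, one_mul]
      have h2 : x ^ i * x ^ i * x ^ i = 1 := by
        calc _ = (x ^ 3) ^ i := by group
          _ = 1 := by rw [R.x_cube, one_pow]
      rw [h1, mul_assoc, ← mul_inv_rev, inv_eq_of_mul_eq_one_right h2]
    let f : Fin 3 → {u // IsConj (χ B0.v) u ∧ u * x * u⁻¹ = x⁻¹} := fun i => ⟨u * x ^ i.val, mem i⟩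
    have hf : Function.Injective f := by
      intro i j e
      have e1 : u * x ^ i.val = u * x ^ j.val := congrArg Subtype.val e
      have h : ∀ i j : Fin 3, B0.x ^ i.val = B0.x ^ j.val → i = j := by decide +kernel
      exact h i j (R.inj (by simpa using e1))
    have hs := ((Nat.bijective_iff_injective_and_card f).mpr ⟨hf, by rw [m3]; simp⟩).2
    intro y h1 h2
    obtain ⟨i, hi⟩ := hs ⟨y, h1, h2⟩
    exact ⟨i, i.2, (congrArg Subtype.val hi).symm⟩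
  have hB : PB.Rel (χ B0.v) x := ⟨R.sq (IsConj.refl _), R.x_cube, by
    rw [hxd, ← map_mul, ← map_pow, B0.rel.xv, map_one]⟩
  obtain ⟨i, y', h1, h2, h3⟩ := R.exists_inverter (isConj_iff.mpr ⟨u, rfl⟩)
    (R.out_conj hu (R.inverter_out hu hx) (IsConj.refl _) rfl)
  obtain ⟨k, hk, rfl⟩ := Y y' h1 h2
  have ux : u * x * u = x⁻¹ := by rw [← hx, R.inv_eq hu]
  obtain ⟨j, hj⟩ := exists_third hB (R.ne_one (IsConj.refl _)) (R.sq hu) ux (y := χ (B0.vv i))
    (by fin_cases i <;> simp [B0.vv, hxd]) k hk (by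
      have : ∀ i, (B0.vv i)⁻¹ = B0.vv i := by decide +kernel
      rwa [← map_inv, this, R.inv_eq hu] at h3)
  have ux' : u * x ^ j * x * (u * x ^ j) = x⁻¹ := by
    have h4 := L0.inverts_pow hx j
    rw [R.inv_eq hu] at h4
    calc _ = (u * x * u) * (u * x ^ j * u) * x ^ j := by
          rw [show u * x * u * (u * x ^ j * u) = u * x * (u * u) * x ^ j * u by group, R.sq hu]; group
      _ = _ := by rw [ux, h4]; group
  have uu' : u * x ^ j * (u * x ^ j) = 1 := by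
    have h4 := L0.inverts_pow hx j
    rw [R.inv_eq hu] at h4
    rw [← mul_assoc, h4]; group
  obtain ⟨ψ, p1, p2, p3⟩ := A0.exists_hom5 ⟨hB, uu', ux', hj⟩
  have inj : Function.Injective ψ := A0.injective (p1 ▸ R.ne_one (IsConj.refl _))
  have cm : ∀ ζ ∈ Z, ∀ s, ζ * ψ s = ψ s * ζ := by
    intro ζ hζ s
    have := A0.eq_top5 ((centralizer {ζ}).comap ψ)
      (by rw [mem_comap, p1]; exact mem_centralizer_singleton_iff.mpr (R.comm ζ hζ _).symm)
      (by rw [mem_comap, p2]; exact mem_centralizer_singleton_iff.mpr (R.comm ζ hζ _).symm)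
      (by
        rw [mem_comap, p3]
        exact mul_mem (mem_centralizer_singleton_iff.mpr (hZu ζ hζ).symm)
          (pow_mem (mem_centralizer_singleton_iff.mpr (R.comm ζ hζ _).symm) _))
    exact (mem_centralizer_singleton_iff.mp (show s ∈ (centralizer {ζ}).comap ψ from
      this ▸ mem_top s)).symm
  refine ⟨ψ, inj, p1, p2, cm, fun g => ?_⟩
  let f : Z × A0 → H := fun p => p.1.1 * ψ p.2
  have hf : Function.Injective f := by
    rintro ⟨⟨ζ, hζ⟩, s⟩ ⟨⟨ζ', hζ'⟩, s'⟩ e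
    have e' : ζ * ψ s = ζ' * ψ s' := e
    have h4 : ψ (s * s'⁻¹) = ζ⁻¹ * ζ' := by
      rw [map_mul, map_inv, ← mul_inv_eq_iff_eq_mul.mpr e'.symm]; group
    have h5 : ∀ b : A0, (∀ c, b * c = c * b) → b = 1 := by decide +kernel
    have h6 : s = s' := mul_inv_eq_one.mp (h5 _ fun c => inj (by
      rw [map_mul _ _ c, map_mul _ c, h4]; exact cm _ (Z.mul_mem (Z.inv_mem hζ) hζ') c))
    subst h6
    have : ζ = ζ' := by simpa using e'
    subst this; rfl
  have hs := ((Nat.bijective_iff_injective_and_card f).mpr ⟨hf, by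
    rw [R.card_eq, ← hxd, m3, Nat.card_prod, TN.card_eq]; ring⟩).2
  obtain ⟨⟨ζ, s⟩, rfl⟩ := hs g
  exact ⟨ζ.1, ζ.2, s, rfl⟩

end RecHyp

end Cfsg.H5
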