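import Cfsg.Agent.H5.Model
import Cfsg.Agent.L0.Dihedral
import Cfsg.Agent.H3.SmallGrp

/-!
Thompson's order formula for groups with two classes of involutions, and counting in table groups.
-/

set_option autoImplicit false

namespace Cfsg.H5

open Subgroup

variable {G : Type*} [Group G]

theorem mem_zpowers_iff_lt {g y : G} {n : ℕ} (hn : 0 < n) (h : g ^ n = 1) :
    y ∈ zpowers g ↔ ∃ k < n, g ^ k = y := by
  constructor
  · rintro ⟨k, rfl⟩
    refine ⟨(k % n).toNat, ?_, ?_⟩
    · have h1 := Int.emod_lt_of_pos k (b := n) (by exact_mod_cast hn)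
      have h2 := Int.emod_nonneg k (b := n) (by exact_mod_cast hn.ne')
      omega
    · show _ = g ^ k
      rw [← zpow_natCast, Int.toNat_of_nonneg (Int.emod_nonneg k (by exact_mod_cast hn.ne'))]
      exact (zpow_eq_zpow_emod' k h).symm
  · rintro ⟨k, -, rfl⟩
    exact npow_mem_zpowers g k

theorem involution_unique [Finite G] {g y y' : G} (hy : y ∈ zpowers g) (hy' : y' ∈ zpowers g)
    (h1 : y * y = 1) (h2 : y ≠ 1) (h1' : y' * y' = 1) (h2' : y' ≠ 1) : y = y' := by
  have key : ∀ y ∈ zpowers g, y * y = 1 → y ≠ 1 → ∃ k, 2 * k = orderOf g ∧ g ^ k = y := by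
    intro y hy h1 h2
    obtain ⟨k, hk, rfl⟩ := (mem_zpowers_iff_lt (orderOf_pos g) (pow_orderOf_eq_one g)).mp hy
    refine ⟨k, ?_, rfl⟩
    rw [← pow_add] at h1
    obtain ⟨c, hc⟩ := orderOf_dvd_of_pow_eq_one h1
    have hk0 : k ≠ 0 := by rintro rfl; exact h2 (pow_zero g)
    have : c = 1 := by
      rcases c with _ | _ | c
      · omega
      · rfl
      · nlinarith
    rw [this] at hc; omega
  obtain ⟨k, hk, rfl⟩ := key y hy h1 h2
  obtain ⟨k', hk', rfl⟩ := key y' hy' h1' h2'
  rw [show k = k' by omega]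

/-- The number of pairs from two classes whose product has `y` as a power. -/
noncomputable def thA (z w y : G) : ℕ :=
  Nat.card {p : G × G // IsConj z p.1 ∧ IsConj w p.2 ∧ y ∈ zpowers (p.1 * p.2)}

theorem thA_conj (z w y g : G) : thA z w (g * y * g⁻¹) = thA z w y := by
  have key : ∀ (g y : G) (p : G × G), (IsConj z p.1 ∧ IsConj w p.2 ∧ y ∈ zpowers (p.1 * p.2)) →
      IsConj z (g * p.1 * g⁻¹) ∧ IsConj w (g * p.2 * g⁻¹) ∧
        g * y * g⁻¹ ∈ zpowers (g * p.1 * g⁻¹ * (g * p.2 * g⁻¹)) := by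
    rintro g y p ⟨h1, h2, k, rfl⟩
    refine ⟨h1.trans (isConj_iff.mpr ⟨g, rfl⟩), h2.trans (isConj_iff.mpr ⟨g, rfl⟩), k, ?_⟩
    show _ = g * (p.1 * p.2) ^ k * g⁻¹
    rw [← conj_zpow, conj_mul]
  symm
  refine Nat.card_congr ⟨fun p => ⟨(g * p.1.1 * g⁻¹, g * p.1.2 * g⁻¹), key g y p.1 p.2⟩,
    fun p => ⟨(g⁻¹ * p.1.1 * g⁻¹⁻¹, g⁻¹ * p.1.2 * g⁻¹⁻¹), by
      have := key g⁻¹ _ p.1 p.2
      rwa [show g⁻¹ * (g * y * g⁻¹) * g⁻¹⁻¹ = y by group] at this⟩, fun p => ?_, fun p => ?_⟩
  · apply Subtype.ext; apply Prod.ext <;> simp [mul_assoc]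
  · apply Subtype.ext; apply Prod.ext <;> simp [mul_assoc]

theorem sq_of_isConj {z s : G} (hz : z * z = 1) (h : IsConj z s) : s * s = 1 := by
  obtain ⟨g, rfl⟩ := isConj_iff.mp h
  rw [conj_mul, hz]; simp

theorem ne_one_of_isConj {z s : G} (hz : z ≠ 1) (h : IsConj z s) : s ≠ 1 := by
  rintro rfl
  exact hz (isConj_one_left.mp h)

theorem thompson_formula [Finite G] {z w : G} (hz : z * z = 1) (hz1 : z ≠ 1) (hw : w * w = 1)
    (hw1 : w ≠ 1) (hn : ¬ IsConj w z) (hall : ∀ y, y * y = 1 → y ≠ 1 → IsConj z y ∨ IsConj w y) :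
    Nat.card G = thA z w z * Nat.card (centralizer {w}) + thA z w w * Nat.card (centralizer {z}) := by
  classical
  have := Fintype.ofFinite G
  set Zc : Finset G := Finset.univ.filter (IsConj z) with hZc
  set Wc : Finset G := Finset.univ.filter (IsConj w) with hWc
  have hdisj : Disjoint Zc Wc := by
    rw [Finset.disjoint_filter]
    exact fun x _ h1 h2 => hn (h2.trans h1.symm)
  have h := Finset.sum_card_bipartiteAbove_eq_sum_card_bipartiteBelow (s := Zc ×ˢ Wc) (t := Zc ∪ Wc)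
    (r := fun p y => y ∈ zpowers (p.1 * p.2))
  have h1 : ∀ p ∈ Zc ×ˢ Wc, (Finset.bipartiteAbove (fun (p : G × G) y => y ∈ zpowers (p.1 * p.2))
      (Zc ∪ Wc) p).card = 1 := by
    intro p hp
    simp only [hZc, hWc, Finset.mem_product, Finset.mem_filter, Finset.mem_univ, true_and] at hp
    have ho : ¬ Odd (orderOf (p.1 * p.2)) := fun ho => by
      obtain ⟨g, -, e⟩ := L0.exists_conj_of_odd_orderOf_mul (sq_of_isConj hz hp.1)
        (sq_of_isConj hw hp.2) ho
      exact hn (hp.2.trans ((hp.1.trans (isConj_iff.mpr ⟨g, e⟩)).symm))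
    obtain ⟨m, hm⟩ := Nat.not_odd_iff_even.mp ho
    have hpos := orderOf_pos (p.1 * p.2)
    have y1 : (p.1 * p.2) ^ m ≠ 1 := pow_ne_one_of_lt_orderOf (by omega) (by omega)
    have y2 : (p.1 * p.2) ^ m * (p.1 * p.2) ^ m = 1 := by rw [← pow_add, ← hm, pow_orderOf_eq_one]
    rw [Finset.card_eq_one]
    refine ⟨(p.1 * p.2) ^ m, ?_⟩
    ext y
    simp only [Finset.mem_bipartiteAbove, hZc, hWc, Finset.mem_union, Finset.mem_filter,
      Finset.mem_univ, true_and, Finset.mem_singleton]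
    constructor
    · rintro ⟨h2, h3⟩
      refine involution_unique h3 (npow_mem_zpowers _ _) ?_ ?_ y2 y1
      · exact h2.elim (sq_of_isConj hz) (sq_of_isConj hw)
      · exact h2.elim (ne_one_of_isConj hz1) (ne_one_of_isConj hw1)
    · rintro rfl
      exact ⟨hall _ y2 y1, npow_mem_zpowers _ _⟩
  have h2 : ∀ y, (Finset.bipartiteBelow (fun (p : G × G) y => y ∈ zpowers (p.1 * p.2))
      (Zc ×ˢ Wc) y).card = thA z w y := by
    intro y
    unfold thA
    rw [Nat.card_eq_fintype_card, Fintype.card_subtype]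
    congr 1
    ext p
    simp [Finset.mem_bipartiteBelow, hZc, hWc, and_assoc, -isConj_iff]
  have h3 : ∀ x : G, ∑ y ∈ Finset.univ.filter (IsConj x), thA z w y =
      (Finset.univ.filter (IsConj x)).card * thA z w x := by
    intro x
    rw [Finset.sum_congr rfl (g := fun _ => thA z w x), Finset.sum_const, smul_eq_mul]
    intro y hy
    obtain ⟨g, rfl⟩ := isConj_iff.mp (Finset.mem_filter.mp hy).2
    exact thA_conj z w x g
  have h4 : ∀ x : G, (Finset.univ.filter (IsConj x)).card * Nat.card (centralizer {x}) =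
      Nat.card G := by
    intro x
    rw [← H3.ncard_conj_mul_card_top x, ← Set.ncard_coe_finset]
    congr 2
    ext y
    simp
  rw [Finset.sum_congr rfl h1, Finset.sum_congr rfl fun y _ => h2 y, Finset.sum_union hdisj,
    Finset.sum_const, smul_eq_mul, mul_one, Finset.card_product, h3, h3] at h
  have h5 := h4 z
  have h6 := h4 w
  rw [← hZc] at h h5
  rw [← hWc] at h h6
  have hpos : 0 < Nat.card G := Nat.card_pos
  apply Nat.eq_of_mul_eq_mul_left hpos
  generalize Nat.card (centralizer {w}) = cw at *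
  generalize Nat.card (centralizer {z}) = cz at *
  generalize thA z w z = a at *
  generalize thA z w w = b at *
  calc Nat.card G * Nat.card G = (Zc.card * cz) * (Wc.card * cw) := by rw [h5, h6]
    _ = (Zc.card * Wc.card) * (cz * cw) := by ring
    _ = (Zc.card * cz) * (a * cw) + (Wc.card * cw) * (b * cz) := by rw [h]; ring
    _ = _ := by rw [h5, h6]; ring

/-! ### Counting -/

/-- The sum of the values below `m`. -/
def sumB (f : ℕ → ℕ) (m : ℕ) : ℕ := @Nat.rec (fun _ => ℕ) 0 (fun i ih => Nat.add (f i) ih) m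

theorem sumB_eq (f : ℕ → ℕ) (m : ℕ) : sumB f m = ∑ i ∈ Finset.range m, f i := by
  induction m with
  | zero => rfl
  | succ m ih =>
    rw [Finset.sum_range_succ, ← ih, add_comm (sumB f m)]; rfl

/-- The sum over a small carrier. -/
def TN.sum {tag n : ℕ} (f : TN tag n → ℕ) : ℕ :=
  sumB (fun i => if h : i < n then f ⟨i, h⟩ else 0) n

theorem TN.sum_eq {tag n : ℕ} [Fintype (TN tag n)] (f : TN tag n → ℕ) : ∑ a, f a = TN.sum f := by
  unfold TN.sum
  rw [sumB_eq, Finset.sum_range, ← TN.equivFin.symm.sum_comp]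
  refine Finset.sum_congr rfl fun i _ => ?_
  rw [dif_pos i.2]; rfl

theorem card_subtype_prod {α β : Type*} [Fintype α] [Finite β] (P : α × β → Prop) :
    Nat.card {p // P p} = ∑ a, Nat.card {b // P (a, b)} := by
  rw [Nat.card_congr (Equiv.subtypeProdEquivSigmaSubtype fun a b => P (a, b)), Nat.card_sigma]

theorem TN.card_prod {tag n : ℕ} {β : Type*} [Finite β] (P : TN tag n × β → Prop) :
    Nat.card {p // P p} = TN.sum fun a => Nat.card {b // P (a, b)} := by
  have := Fintype.ofFinite (TN tag n)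
  rw [card_subtype_prod, TN.sum_eq]

theorem TN.card_subtype {tag n : ℕ} (P : TN tag n → Prop) [DecidablePred P] :
    Nat.card {a // P a} = TN.sum fun a => if P a then 1 else 0 := by
  have := Fintype.ofFinite (TN tag n)
  rw [← TN.sum_eq, Nat.card_eq_fintype_card, Fintype.card_subtype, Finset.card_filter]

theorem C0.card_subtype (P : C0 → Prop) [DecidablePred P] :
    Nat.card {a // P a} = TN.sum fun q => TN.sum fun s => if P ⟨q, s⟩ then 1 else 0 := by
  rw [Nat.card_congr (C0.equivProd.subtypeEquiv (p := P) (q := fun p => P ⟨p.1, p.2⟩)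
    fun _ => Iff.rfl), TN.card_prod]
  simp only [TN.card_subtype]

end Cfsg.H5
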