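import Cfsg.Agent.H9.Coprime
import Cfsg.Agent.H5.ZStar

/-! Coprime operators centralizing the centralizer of an involution. -/

set_option autoImplicit false

namespace Cfsg.H5.CopInv

open Subgroup Cfsg.H9

theorem fiber_eq {L Ω : Type*} [Fintype L] [Fintype Ω] [DecidableEq Ω] (f φ : L → Ω) (m : ℕ)
    (hm : ∀ c, (Finset.univ.filter fun x => f x = c).card = m)
    (h : ∀ x y, φ x = φ y → f x = f y) {x y : L} (hxy : f x = f y) : φ x = φ y := by
  by_contra hne
  have h1 : Fintype.card L = ∑ c : Ω, (Finset.univ.filter fun x => f x = c).card :=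
    Finset.card_eq_sum_card_fiberwise (f := f) (s := Finset.univ) (t := Finset.univ) (by simp)
  have h2 : Fintype.card L = ∑ c : Ω, (Finset.univ.filter fun x => φ x = c).card :=
    Finset.card_eq_sum_card_fiberwise (f := φ) (s := Finset.univ) (t := Finset.univ) (by simp)
  have h3 : ∑ c : Ω, (Finset.univ.filter fun x => φ x = c).card <
      ∑ c : Ω, (Finset.univ.filter fun x => f x = c).card := by
    refine Finset.sum_lt_sum (fun d _ => ?_) ⟨φ x, Finset.mem_univ _, ?_⟩
    · rcases (Finset.univ.filter fun x => φ x = d).eq_empty_or_nonempty with h0 | ⟨z, hz⟩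
      · simp [h0]
      · rw [hm d, ← hm (f z)]
        refine Finset.card_le_card fun w hw => ?_
        simp only [Finset.mem_filter, Finset.mem_univ, true_and] at hw hz ⊢
        exact h _ _ (hw.trans hz.symm)
    · rw [hm (φ x), ← hm (f x)]
      refine Finset.card_lt_card ⟨fun w hw => ?_, fun hs => ?_⟩
      · simp only [Finset.mem_filter, Finset.mem_univ, true_and] at hw ⊢
        exact h _ _ hw
      · have := hs (show y ∈ Finset.univ.filter fun w => f w = f x by simp [hxy])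
        simp only [Finset.mem_filter, Finset.mem_univ, true_and] at this
        exact hne this.symm
  omega

variable {Γ : Type*} [Group Γ] [Finite Γ] {K : Subgroup Γ} [hK : K.Normal]

/-- hypothesis: `a` acts coprimely on `K` and centralizes `C_K(t)` -/
structure Hyp (K : Subgroup Γ) (a t : Γ) : Prop where
  cop : (orderOf a).Coprime (Nat.card K)
  mem : t ∈ K
  ord : orderOf t = 2
  le : K ⊓ centralizer ({t} : Set Γ) ≤ centralizer ({a} : Set Γ)

omit [Finite Γ] in
theorem Hyp.conj {a t : Γ} (h : Hyp K a t) (k : Γ) : Hyp K (k * a * k⁻¹) (k * t * k⁻¹) where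
  cop := by
    have : orderOf (k * a * k⁻¹) = orderOf a := (MulAut.conj k).orderOf_eq a
    rw [this]; exact h.cop
  mem := hK.conj_mem _ h.mem k
  ord := by
    have : orderOf (k * t * k⁻¹) = orderOf t := (MulAut.conj k).orderOf_eq t
    rw [this]; exact h.ord
  le := by
    intro x hx
    obtain ⟨h1, h2⟩ := mem_inf.1 hx
    rw [mem_centralizer_singleton_iff] at h2 ⊢
    have h3 : k⁻¹ * x * k ∈ K ⊓ centralizer ({t} : Set Γ) := by
      refine mem_inf.2 ⟨by simpa using hK.conj_mem _ h1 k⁻¹, ?_⟩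
      rw [mem_centralizer_singleton_iff]
      calc k⁻¹ * x * k * t = k⁻¹ * (x * (k * t * k⁻¹)) * k := by group
        _ = _ := by rw [h2]; group
    have h4 := mem_centralizer_singleton_iff.1 (h.le h3)
    calc x * (k * a * k⁻¹) = k * (k⁻¹ * x * k * a) * k⁻¹ := by group
      _ = _ := by rw [h4]; group

omit [Finite Γ] in
theorem mem_normalizer_of_normal (a : Γ) : a ∈ normalizer (K : Set Γ) := by
  rw [normalizer_eq_top]; trivial

theorem Hyp.act {a t : Γ} (h : Hyp K a t) : CoprimeAct (zpowers a) K :=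
  coprimeAct_zpowers (isOfFinOrder_of_finite a) (mem_normalizer_of_normal a) h.cop

omit [Finite Γ] hK in
theorem centralizer_zpowers' (a : Γ) : centralizer (zpowers a : Set Γ) = centralizer {a} := by
  ext x
  rw [mem_centralizer_singleton_iff, mem_centralizer_iff]
  constructor
  · intro h; exact (h a (mem_zpowers a)).symm
  · rintro h _ ⟨n, rfl⟩
    exact ((Commute.zpow_right h n)).symm

/-- invariant 2-subgroups are centralized -/
theorem Hyp.le_of_isPGroup {a t : Γ} (h : Hyp K a t) {T : Subgroup Γ} (hT : IsPGroup 2 T) (hTK : T ≤ K)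
    (ha : zpowers a ≤ normalizer (T : Set Γ)) : T ≤ centralizer ({a} : Set Γ) := by
  have htC : t ∈ centralizer ({a} : Set Γ) :=
    h.le (mem_inf.2 ⟨h.mem, mem_centralizer_singleton_iff.2 rfl⟩)
  have ht2 : IsPGroup 2 (zpowers t) := H8.isPGroup_zpowers (k := 1) (by rw [pow_one, ← h.ord, pow_orderOf_eq_one])
  have hat : zpowers a ≤ centralizer (zpowers t : Set Γ) := by
    rw [centralizer_zpowers', zpowers_le, mem_centralizer_singleton_iff]
    exact (mem_centralizer_singleton_iff.1 htC).symm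
  obtain ⟨T1, h1, h1a, hT1⟩ := h.act.exists_invariant_sylow_le hT hTK ha
  obtain ⟨T0, h0, h0a, hT0⟩ := h.act.exists_invariant_sylow_le ht2 (zpowers_le.2 h.mem)
    (hat.trans (centralizer_le_normalizer _))
  have hodd : ¬ 2 ∣ Nat.card (zpowers a) := by
    rw [Nat.card_zpowers]
    intro hd
    have h2 : 2 ∣ Nat.card K := by
      rw [← h.ord, ← Nat.card_zpowers]; exact card_dvd_of_le (zpowers_le.2 h.mem)
    exact absurd (Nat.dvd_gcd hd h2) (by rw [h.cop]; decide)
  have hc0 : T0 ≤ centralizer (zpowers a : Set Γ) := by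
    refine thompson_AxB hodd h0.isPGroup ht2 h0a (hT0.trans le_normalizer) hat ?_
    rw [centralizer_zpowers', centralizer_zpowers']
    exact (inf_le_inf_right _ h0.le).trans h.le
  obtain ⟨c, hc, rfl⟩ := h.act.invariant_sylow_conj h0 h1 h0a h1a
  refine hT1.trans ?_
  rw [← centralizer_zpowers']
  rintro _ ⟨y, hy, rfl⟩
  exact mul_mem (mul_mem hc.2 (hc0 hy)) (inv_mem hc.2)

/-- uniqueness of the fixed point -/
theorem Hyp.eq_of_commute {a t : Γ} (h : Hyp K a t) {k : Γ} (hk : k ∈ K)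
    (hc : t * (k * a * k⁻¹) = k * a * k⁻¹ * t) : k * a * k⁻¹ = a := by
  have htC : t * a = a * t := mem_centralizer_singleton_iff.1
    (h.le (mem_inf.2 ⟨h.mem, mem_centralizer_singleton_iff.2 rfl⟩))
  have haC : a ∈ centralizer ({t} : Set Γ) := mem_centralizer_singleton_iff.2 htC.symm
  have hN : a ∈ normalizer ((K ⊓ centralizer ({t} : Set Γ) : Subgroup Γ) : Set Γ) := by
    refine le_normalizer_inf (A := zpowers a) (zpowers_le.2 (mem_normalizer_of_normal a))
      ((zpowers_le.2 haC).trans le_normalizer) (mem_zpowers a)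
  obtain ⟨n, hn, hx⟩ := exists_mul_mem_centralizer_singleton (N := K ⊓ centralizer ({t} : Set Γ))
    (isOfFinOrder_of_finite a) hN (h.cop.coprime_dvd_right (card_dvd_of_le inf_le_left)) (x := k⁻¹) (by
      refine mem_inf.2 ⟨?_, ?_⟩
      · exact mul_mem (by simpa using hk) (hK.conj_mem _ (inv_mem hk) a)
      · have : k⁻¹⁻¹ * (a * k⁻¹ * a⁻¹) = (k * a * k⁻¹) * a⁻¹ := by group
        rw [this]
        exact mul_mem (mem_centralizer_singleton_iff.2 hc.symm) (inv_mem haC))
  have hk' : k⁻¹ ∈ centralizer ({a} : Set Γ) := by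
    have := mul_mem hx (inv_mem (h.le hn))
    simpa using this
  have := mem_centralizer_singleton_iff.1 (inv_mem hk')
  rw [inv_inv] at this
  rw [this]; group

/-- an involution inverting an element with a fixed point -/
theorem Hyp.exists_commute {a t : Γ} (h : Hyp K a t) {x g : Γ} (hx : x ∈ K) (hx2 : x * x = 1)
    (hxg : x * g * x⁻¹ = g⁻¹) (hg : g * a = a * g) :
    ∃ m ∈ K, x * (m * a * m⁻¹) = m * a * m⁻¹ * x ∧ g * (m * a * m⁻¹) = m * a * m⁻¹ * g := by
  set M := K ⊓ normalizer (zpowers g : Set Γ) with hM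
  have hag : zpowers a ≤ centralizer (zpowers g : Set Γ) := by
    rw [centralizer_zpowers', zpowers_le, mem_centralizer_singleton_iff]; exact hg.symm
  have hc : CoprimeAct (zpowers a) M := h.act.mono le_rfl inf_le_left
    (le_normalizer_inf (zpowers_le.2 (mem_normalizer_of_normal a))
      ((hag.trans (centralizer_le_normalizer _)).trans le_normalizer))
  obtain ⟨T, hT, haT⟩ := hc.exists_invariant_sylow 2
  have hTa := h.le_of_isPGroup hT.isPGroup (hT.le.trans inf_le_left) haT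
  have hxM : x ∈ M := by
    refine mem_inf.2 ⟨hx, H8.mem_normalizer_of_forall ?_⟩
    rintro _ ⟨n, rfl⟩
    refine ⟨-n, ?_⟩
    show g ^ (-n) = x * g ^ n * x⁻¹
    rw [← conj_zpow, hxg]; simp
  have hT' : H8.IsSyl 2 T M := H8.isSyl_iff_exists_sylow.2 hT.exists_sylow
  obtain ⟨m, hm, hmx⟩ := hT'.exists_conj_mem hxM ⟨1, by rw [pow_one, pow_two, hx2]⟩
  refine ⟨m⁻¹, inv_mem hm.1, ?_, ?_⟩
  · have := mem_centralizer_singleton_iff.1 (hTa hmx)
    calc x * (m⁻¹ * a * m⁻¹⁻¹) = m⁻¹ * (m * x * m⁻¹ * a) * m := by group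
      _ = _ := by rw [this]; group
  · have h1 : m * g * m⁻¹ ∈ zpowers g := H8.conj_mem_of_mem_normalizer hm.2 (mem_zpowers g)
    have := mem_centralizer_iff.1 (hag (mem_zpowers a)) _ h1
    calc g * (m⁻¹ * a * m⁻¹⁻¹) = m⁻¹ * (m * g * m⁻¹ * a) * m := by group
      _ = _ := by rw [this]; group

theorem Hyp.main {a t : Γ} (h : Hyp K a t) {g : Γ} (hg : g ∈ K)
    (hc : g * t * g⁻¹ * a = a * (g * t * g⁻¹)) {k : Γ} (hk : k ∈ K) :
    t * (k * a * k⁻¹) * t⁻¹ = g * t * g⁻¹ * (k * a * k⁻¹) * (g * t * g⁻¹)⁻¹ := by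
  classical
  let L := {x : Γ // ∃ g ∈ K, x = g * t * g⁻¹}
  let Ω := {b : Γ // ∃ g ∈ K, b = g * a * g⁻¹}
  have := Fintype.ofFinite L
  have := Fintype.ofFinite Ω
  let f : L → Ω := fun x => ⟨x.2.choose * a * x.2.choose⁻¹, x.2.choose, x.2.choose_spec.1, rfl⟩
  have hxK : ∀ x : L, x.1 ∈ K := fun ⟨x, g, hg, e⟩ => by
    show x ∈ K
    rw [e]; exact hK.conj_mem _ h.mem g
  have hHyp : ∀ x : L, Hyp K (f x).1 x.1 := fun x => by
    have := h.conj x.2.choose
    rw [← x.2.choose_spec.2] at this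
    exact this
  have hf : ∀ (x : L) (b : Ω), f x = b ↔ x.1 * b.1 = b.1 * x.1 := fun x b => by
    constructor
    · rintro rfl
      exact mem_centralizer_singleton_iff.1
        ((hHyp x).le (mem_inf.2 ⟨hxK x, mem_centralizer_singleton_iff.2 rfl⟩))
    · intro e
      obtain ⟨b, u, hu, rfl⟩ := b
      obtain ⟨v, hv, e2⟩ := (f x).2
      have e3 : u * a * u⁻¹ = (u * v⁻¹) * (f x).1 * (u * v⁻¹)⁻¹ := by rw [e2]; group
      apply Subtype.ext
      show (f x).1 = u * a * u⁻¹
      rw [e3]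
      refine ((hHyp x).eq_of_commute (mul_mem hu (inv_mem hv)) ?_).symm
      rw [← e3]; exact e
  let φ : L → Ω := fun x => ⟨x.1 * (k * a * k⁻¹) * x.1⁻¹, x.1 * k, mul_mem (hxK x) hk, by group⟩
  have hsq : ∀ x : L, x.1 * x.1 = 1 := fun x => by
    rw [← pow_two, ← (hHyp x).ord, pow_orderOf_eq_one]
  have key := fiber_eq f φ (Finset.univ.filter fun x => f x = ⟨a, 1, one_mem _, by group⟩).card
    (fun c => by
      obtain ⟨c, u, hu, rfl⟩ := c
      symm
      refine Finset.card_bij' (fun x _ => ⟨u * x.1 * u⁻¹, ?_⟩) (fun x _ => ⟨u⁻¹ * x.1 * u, ?_⟩) ?_ ?_ ?_ ?_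
      · obtain ⟨x, v, hv, rfl⟩ := x
        exact ⟨u * v, mul_mem hu hv, by group⟩
      · obtain ⟨x, v, hv, rfl⟩ := x
        exact ⟨u⁻¹ * v, mul_mem (inv_mem hu) hv, by group⟩
      · intro x hx
        simp only [Finset.mem_filter, Finset.mem_univ, true_and, hf] at hx ⊢
        calc u * x.1 * u⁻¹ * (u * a * u⁻¹) = u * (x.1 * a) * u⁻¹ := by group
          _ = _ := by rw [hx]; group
      · intro x hx
        simp only [Finset.mem_filter, Finset.mem_univ, true_and, hf] at hx ⊢
        calc u⁻¹ * x.1 * u * a = u⁻¹ * (x.1 * (u * a * u⁻¹)) * u := by group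
          _ = _ := by rw [hx]; group
      · intro x _; apply Subtype.ext; simp [mul_assoc]
      · intro x _; apply Subtype.ext; simp [mul_assoc])
    (fun x y e => by
      have e1 : x.1 * (k * a * k⁻¹) * x.1⁻¹ = y.1 * (k * a * k⁻¹) * y.1⁻¹ := congrArg Subtype.val e
      have ix : x.1⁻¹ = x.1 := inv_eq_of_mul_eq_one_right (hsq x)
      have iy : y.1⁻¹ = y.1 := inv_eq_of_mul_eq_one_right (hsq y)
      obtain ⟨m, hm, h1, h2⟩ := (h.conj k).exists_commute (x := x.1) (g := x.1 * y.1) (hxK x) (hsq x)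
        (by rw [mul_inv_rev, ix, iy, ← mul_assoc, hsq x, one_mul])
        (by
          calc x.1 * y.1 * (k * a * k⁻¹) = x.1 * (y.1 * (k * a * k⁻¹) * y.1⁻¹) * y.1 := by group
            _ = (x.1 * x.1) * (k * a * k⁻¹) * x.1⁻¹ * y.1 := by rw [← e1]; group
            _ = _ := by rw [hsq x, ix]; group)
      let b : Ω := ⟨m * (k * a * k⁻¹) * m⁻¹, m * k, mul_mem hm hk, by group⟩
      have hx : f x = b := (hf x b).2 h1
      have hy : f y = b := (hf y b).2 (by
        show y.1 * (m * (k * a * k⁻¹) * m⁻¹) = m * (k * a * k⁻¹) * m⁻¹ * y.1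
        calc y.1 * (m * (k * a * k⁻¹) * m⁻¹) = x.1⁻¹ * (x.1 * y.1 * (m * (k * a * k⁻¹) * m⁻¹)) := by group
          _ = x.1⁻¹ * (m * (k * a * k⁻¹) * m⁻¹ * x.1) * y.1 := by rw [h2]; group
          _ = _ := by rw [← h1]; group)
      rw [hx, hy])
    (x := ⟨t, 1, one_mem _, by group⟩) (y := ⟨g * t * g⁻¹, g, hg, rfl⟩) (by
      rw [(hf _ ⟨a, 1, one_mem _, by group⟩).2, (hf _ ⟨a, 1, one_mem _, by group⟩).2 hc]
      exact mem_centralizer_singleton_iff.1
        (h.le (mem_inf.2 ⟨h.mem, mem_centralizer_singleton_iff.2 rfl⟩)))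
  exact congrArg Subtype.val key

end Cfsg.H5.CopInv
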