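import Cfsg.Agent.H5.HeY
import Cfsg.Agent.BS.Fin
import Cfsg.Agent.BS.B2

/-!
Involutions of a strongly embedded subgroup whose product is a two-element commute.
-/

set_option autoImplicit false

namespace Cfsg.H5.He

open Subgroup

theorem rank_two {G : Type*} [Group G] [Finite G] {a b : G} (ha : a * a = 1) (hb : b * b = 1)
    (hab : a * b = b * a) (a1 : a ≠ 1) (b1 : b ≠ 1) (ab : a ≠ b) : PRankAtLeast 2 2 G := by
  classical
  have e1 : a * (a * b) = b := by rw [← mul_assoc, ha, one_mul]
  have e2 : b * (a * b) = a := by rw [hab, ← mul_assoc, hb, one_mul]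
  have e3 : a * b * a = b := by rw [hab, mul_assoc, ha, mul_one]
  have e4 : a * b * b = a := by rw [mul_assoc, hb, mul_one]
  have e5 : a * b * (a * b) = 1 := by rw [← mul_assoc, e3, hb]
  let A : Subgroup G := subOfMul {d | d = 1 ∨ d = a ∨ d = b ∨ d = a * b} (Or.inl rfl) (by
    rintro _ (rfl | rfl | rfl | rfl) _ (rfl | h | h | h) <;> (try rw [h]) <;>
      simp [ha, hb, e1, e2, e3, e4, e5, ← hab])
  have sq : ∀ d ∈ A, d * d = 1 := by
    rintro _ (rfl | rfl | rfl | rfl)
    exacts [mul_one _, ha, hb, e5]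
  refine ⟨A, ⟨⟨fun x y => Subtype.ext (by
    have h1 := sq _ (mul_mem x.2 y.2)
    show x.1 * y.1 = y.1 * x.1
    rw [← inv_eq_of_mul_eq_one_left h1, mul_inv_rev, inv_eq_of_mul_eq_one_left (sq _ x.2),
      inv_eq_of_mul_eq_one_left (sq _ y.2)])⟩⟩, fun d hd => by rw [pow_two, sq d hd], ?_⟩
  have n1 : a * b ≠ 1 := fun e => ab (by rw [← e4, e, one_mul])
  have n2 : a * b ≠ a := fun e => b1 (mul_left_cancel (e.trans (mul_one a).symm))
  have n3 : a * b ≠ b := fun e => a1 (mul_right_cancel (e.trans (one_mul b).symm))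
  have : (A : Set G) = ({1, a, b, a * b} : Finset G) := by
    ext d
    simp only [Finset.coe_insert, Finset.coe_singleton, Set.mem_insert_iff, Set.mem_singleton_iff]
    rfl
  rw [← SetLike.coe_sort_coe, this, Nat.card_coe_set_eq, Set.ncard_coe_finset,
    Finset.card_insert_of_notMem (by simp [a1.symm, b1.symm, n1.symm]),
    Finset.card_insert_of_notMem (by simp [ab, n2.symm]),
    Finset.card_insert_of_notMem (by simp [n3.symm]), Finset.card_singleton]
  norm_num

universe u

theorem sec_of (hB : BS.BenderRed) : SEC.{u} := by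
  intro G _ _ X hX h u hu v hv u2 v2 h4
  have : Fact (Nat.Prime 2) := ⟨Nat.prime_two⟩
  by_contra hne
  have ui : u⁻¹ = u := inv_eq_of_mul_eq_one_left u2
  have vi : v⁻¹ = v := inv_eq_of_mul_eq_one_left v2
  have w2 : u * v * (u * v) * (u * v * (u * v)) = 1 := by
    rw [← h4, show 4 = 2 * 2 from rfl, pow_mul, pow_two, pow_two]
  have wi : (u * v * (u * v))⁻¹ = u * v * (u * v) := inv_eq_of_mul_eq_one_left w2
  have w1 : u * v * (u * v) ≠ 1 := fun e => hne (by
    rw [← inv_eq_of_mul_eq_one_left e, mul_inv_rev, ui, vi])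
  have u1 : u ≠ 1 := by rintro rfl; exact hne (by simp)
  have uw : u * (u * v * (u * v)) = u * v * (u * v) * u := by
    conv_lhs => rw [← wi]
    simp only [mul_inv_rev, ui, vi, mul_assoc]
  have uw' : u ≠ u * v * (u * v) := fun e => by
    have e1 : v * (u * v) = 1 := by
      rw [mul_assoc] at e
      exact (mul_left_cancel ((mul_one u).trans e)).symm
    exact u1 (by
      calc u = v * (v * (u * v)) * v := by
            rw [← mul_assoc v, v2, one_mul, mul_assoc, v2, mul_one]
        _ = 1 := by rw [e1, mul_one, v2])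
  have hS : H9.SPE 2 X ⊤ := H9.spe_of_ti le_top hX (by
      have := orderOf_dvd_natCard X hu
      rwa [orderOf_eq_prime (p := 2) (by rw [pow_two, u2]) u1] at this) fun g _ hd => by
    obtain ⟨x, ⟨h1, y, hy, rfl⟩, h2, h3⟩ := H9.exists_mem_pow_eq_one_of_dvd hd
    refine h g y hy ?_ (by rintro rfl; exact h2 (map_one _)) h1
    rw [← map_pow, pow_two] at h3
    exact (MulAut.conj g).injective (h3.trans (map_one _).symm)
  obtain ⟨Y, _, _, e, Q, D, t, hA⟩ := hB.exists_A3 hS (rank_two u2 w2 uw u1 w1 uw')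
  set f := e.toMonoidHom.comp (QuotientGroup.mk' (pPrimeCore 2 G))
  have k := hA.sq_comm (hA.toA1.mem_Q_of_sq (mem_map_of_mem f hu) (by rw [← map_mul, u2, map_one]))
    (by rw [← map_mul, u2, map_one])
    (hA.toA1.mem_Q_of_sq (mem_map_of_mem f hv) (by rw [← map_mul, v2, map_one]))
  have k2 : f (u * v * (u * v)) = 1 := by
    rw [map_mul, map_mul]
    nth_rewrite 1 [k]
    rw [mul_assoc, ← mul_assoc (f u), ← map_mul, u2, map_one, one_mul, ← map_mul, v2, map_one]
  have k3 : u * v * (u * v) ∈ pPrimeCore 2 G := by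
    rw [← QuotientGroup.eq_one_iff]
    exact (map_eq_one_iff _ e.injective).mp k2
  have := Nat.Coprime.coprime_dvd_left (orderOf_dvd_natCard _ k3) (H7.coprime_card_pPrimeCore 2 _)
  rw [orderOf_eq_prime (p := 2) (by rw [pow_two, w2]) w1] at this
  exact absurd this (by norm_num)

end Cfsg.H5.He
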